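import Cfsg.Agent.H277.EM.Univ

/-!
# S2243: simple groups with three classes of involutions (helper86)

`crow_of_three`: at most three classes of involutions, kernels of exponent two, `EM S`, and for each pair of classes a
four-group meeting exactly these two classes: then `CRow S`. (One does not have to know which classes lift.)
-/

set_option autoImplicit false

namespace Cfsg.Agent.H86.EM

open Subgroup Cfsg.Agent.H51.Mult Cfsg.Agent.H277.MI

universe u v w

/-- a four-group meeting the classes of `x` and `y` and no other -/
def Pair {S : Type v} [Group S] (x y : S) : Prop :=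
  ∃ a b : S, a * b = b * a ∧ IsConj x a ∧ IsConj y b ∧ (IsConj x (a * b) ∨ IsConj y (a * b))

theorem Pair.symm {S : Type v} [Group S] {x y : S} (h : Pair x y) : Pair y x := by
  obtain ⟨a, b, h1, h2, h3, h4⟩ := h
  exact ⟨b, a, h1.symm, h3, h2, by rw [← h1]; exact h4.symm⟩

/-- the two classes lift, the others do not -/
theorem Pair.em {L : Type u} {S : Type v} [Group L] [Group S] {π : L →* S} (hs : Function.Surjective π)
    (hc : π.ker ≤ center L) (h2 : ∀ z ∈ π.ker, z * z = 1) {x y : S} (hp : Pair x y) (hx : Lft π x) (hy : Lft π y)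
    (h : ∀ t : S, orderOf t = 2 → Lft π t → IsConj x t ∨ IsConj y t) : EM L := by
  obtain ⟨a, b, hab, hxa, hyb, hxy⟩ := hp
  have la : Lft π a := hx.isConj hs hxa
  have lb : Lft π b := hy.isConj hs hyb
  have lab : Lft π (a * b) := by
    rcases hxy with h | h
    · exact hx.isConj hs h
    · exact hy.isConj hs h
  have haa := la.sq
  have hbb := lb.sq
  have e1 : ∀ z : S, a * (a * z) = z := fun z => by rw [← mul_assoc, haa, one_mul]
  have e2 : ∀ z : S, b * (b * z) = z := fun z => by rw [← mul_assoc, hbb, one_mul]
  have e3 : b * a = a * b := hab.symm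
  have e4 : ∀ z : S, b * (a * z) = a * (b * z) := fun z => by rw [← mul_assoc, e3, mul_assoc]
  let E : Subgroup S :=
    { carrier := {z | z = 1 ∨ z = a ∨ z = b ∨ z = a * b}
      mul_mem' := by
        rintro z w (rfl | rfl | rfl | rfl) (rfl | rfl | rfl | rfl) <;>
          simp [mul_assoc, haa, hbb, e1, e2, e3, e4]
      one_mem' := Or.inl rfl
      inv_mem' := by
        rintro z hz
        have hzz : z * z = 1 := by
          rcases hz with rfl | rfl | rfl | rfl
          · exact one_mul 1
          · exact haa
          · exact hbb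
          · exact lab.sq
        have : z⁻¹ = z := inv_eq_of_mul_eq_one_left hzz
        rw [this]
        exact hz }
  refine em_of_lift hs hc h2 E ?_ ?_
  · rintro e (rfl | rfl | rfl | rfl)
    · exact Lft.one
    · exact la
    · exact lb
    · exact lab
  · intro t ht hl
    rcases h t ht hl with h3 | h3
    · obtain ⟨g, hg⟩ := isConj_iff.1 (h3.symm.trans hxa)
      exact ⟨g, Or.inr (Or.inl hg)⟩
    · obtain ⟨g, hg⟩ := isConj_iff.1 (h3.symm.trans hyb)
      exact ⟨g, Or.inr (Or.inr (Or.inl hg))⟩

/-- **Three classes of involutions.** -/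
theorem crow_of_three {S : Type v} [Group S] (hexp : ExpTwo S) (hE : EM S) {x y z : S} (hxy : Pair x y)
    (hxz : Pair x z) (hyz : Pair y z) (h : ∀ t : S, orderOf t = 2 → IsConj x t ∨ IsConj y t ∨ IsConj z t) : CRow S := by
  intro L _ _ π hπ h2
  have hk := hexp L π hπ h2
  have hs := hπ.surj
  have hc := hπ.cen
  have key : ∀ {a b : S}, IsConj a b → ¬ Lft π a → ¬ Lft π b := fun hab ha hb => ha (hb.isConj hs hab.symm)
  by_cases lx : Lft π x <;> by_cases ly : Lft π y <;> by_cases lz : Lft π z
  · refine em_of_all_lift hs hc hk (fun t ht => ?_) hE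
    rcases h t ht with h3 | h3 | h3
    · exact lx.isConj hs h3
    · exact ly.isConj hs h3
    · exact lz.isConj hs h3
  · refine hxy.em hs hc hk lx ly fun t ht hl => ?_
    rcases h t ht with h3 | h3 | h3
    · exact Or.inl h3
    · exact Or.inr h3
    · exact absurd hl (key h3 lz)
  · refine hxz.em hs hc hk lx lz fun t ht hl => ?_
    rcases h t ht with h3 | h3 | h3
    · exact Or.inl h3
    · exact absurd hl (key h3 ly)
    · exact Or.inr h3
  · refine em_of_one hs hc fun t t' ht ht' hl hl' => ?_
    have h4 : ∀ t : S, orderOf t = 2 → Lft π t → IsConj x t := by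
      intro t ht hl
      rcases h t ht with h3 | h3 | h3
      · exact h3
      · exact absurd hl (key h3 ly)
      · exact absurd hl (key h3 lz)
    exact (h4 t ht hl).symm.trans (h4 t' ht' hl')
  · refine hyz.em hs hc hk ly lz fun t ht hl => ?_
    rcases h t ht with h3 | h3 | h3
    · exact absurd hl (key h3 lx)
    · exact Or.inl h3
    · exact Or.inr h3
  · refine em_of_one hs hc fun t t' ht ht' hl hl' => ?_
    have h4 : ∀ t : S, orderOf t = 2 → Lft π t → IsConj y t := by
      intro t ht hl
      rcases h t ht with h3 | h3 | h3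
      · exact absurd hl (key h3 lx)
      · exact h3
      · exact absurd hl (key h3 lz)
    exact (h4 t ht hl).symm.trans (h4 t' ht' hl')
  · refine em_of_one hs hc fun t t' ht ht' hl hl' => ?_
    have h4 : ∀ t : S, orderOf t = 2 → Lft π t → IsConj z t := by
      intro t ht hl
      rcases h t ht with h3 | h3 | h3
      · exact absurd hl (key h3 lx)
      · exact absurd hl (key h3 ly)
      · exact h3
    exact (h4 t ht hl).symm.trans (h4 t' ht' hl')
  · refine em_of_one hs hc fun t t' ht ht' hl hl' => ?_
    rcases h t ht with h3 | h3 | h3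
    · exact absurd hl (key h3 lx)
    · exact absurd hl (key h3 ly)
    · exact absurd hl (key h3 lz)

end Cfsg.Agent.H86.EM
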