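import Cfsg.Agent.H351.UnfE7.Zero
import Cfsg.Agent.H86.EM.Three
import Cfsg.Agent.BpExc.RowsUntw
import Cfsg.Agent.S2106

/-!
# S2243: `E₇(q)`, `q` odd (helper86)

The involutions of `S = E₇(q)`: `tr 92` (`h_a(-1)`), `Phi (m0)` for the list of 7 orthogonal roots, and `Phi (m0)` for
the list `[92, 107, 111]` of three of these roots (H351.UnfE7). They commute, and for each pair of classes there is
a four-group meeting just these two classes.
-/

set_option autoImplicit false
set_option linter.unusedSectionVars false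

namespace Cfsg.Agent.H86.EM

open CoxeterSystem Cfsg Cfsg.Lie Cfsg.Lie.ChevalleyDatum
open Cfsg.Agent.ChevalleyStructure Cfsg.Agent.ChevalleyStructure.Elts Cfsg.Agent.ChevalleyStructure.CoxeterGeom
  Cfsg.Agent.ChevalleyStructure.CoxeterGeomTypes Cfsg.Agent.ChevalleyStructure.NPerm
open Cfsg.Agent.Tits.Roots Cfsg.Agent.Tits.Core Cfsg.Agent.Nodes Cfsg.Agent.Nodes.Reps Cfsg.Agent.Nodes.BNOf
  Cfsg.Agent.Nodes.RGDChev Cfsg.Agent.Nodes.Bruhat Cfsg.Agent.Nodes.SubComb Cfsg.Agent.Nodes.Coroot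
open Cfsg.Agent.KFacts.RgdField Cfsg.Agent.KFacts.RgdChevCoord Cfsg.Agent.BpExc.TorCent Cfsg.Agent.BpExc.TorChev
open Cfsg.Agent.GpExc.Field Cfsg.Agent.BpExc.Tow Cfsg.Agent.BpExc.TowChev Cfsg.Agent.BpExc.Fr
  Cfsg.Agent.BpExc.LangFr Cfsg.Agent.LangThm Cfsg.Agent.BpExc Cfsg.Agent.H129.TorusChar Cfsg.Agent.H129.TorusCent
  Cfsg.Agent.H129.TorusTw Cfsg.Agent.H129.TorusMain Cfsg.Agent.H129.TorusUntw Cfsg.Agent.H129.WForm
  Cfsg.Agent.H720.TorusReal Cfsg.Agent.H129
open Cfsg.Agent.H238 Cfsg.Agent.H238.SL2Key Cfsg.Agent.H351.UnfE7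
open Cfsg.Agent.H277.MI
open Matrix (SpecialLinearGroup)

universe u v w

/-! ### products over orthogonal roots -/

section PG

variable {K : Type u} [Field K]

/-- the product with different entries -/
noncomputable def PF (K : Type u) [Field K] (L : List ℕ) (M : ℕ → SpecialLinearGroup (Fin 2) K) : ↥(chevE7.group K) :=
  (L.map fun r => phr K r (M r)).prod

theorem PF_cons (r : ℕ) (L : List ℕ) (M : ℕ → SpecialLinearGroup (Fin 2) K) :
    PF K (r :: L) M = phr K r (M r) * PF K L M := rfl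

theorem PF_comm {r : ℕ} {L : List ℕ} (hr : r < chevE7.nroots) (hL : ∀ s ∈ L, s < chevE7.nroots)
    (h : ∀ s ∈ L, ip (vec chevE7 7 r) (vec chevE7 7 s) = 0) (g : SpecialLinearGroup (Fin 2) K)
    (M : ℕ → SpecialLinearGroup (Fin 2) K) : Commute (phr K r g) (PF K L M) := by
  induction L with
  | nil => exact Commute.one_right _
  | cons s L ih =>
    rw [PF_cons]
    exact (phr_comm hr (hL s List.mem_cons_self) (h s List.mem_cons_self) g _).mul_right
      (ih (fun t ht => hL t (List.mem_cons_of_mem _ ht)) fun t ht => h t (List.mem_cons_of_mem _ ht))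

theorem PF_mul {L : List ℕ} (hL : OrthL L) (M M' : ℕ → SpecialLinearGroup (Fin 2) K) :
    PF K L (M * M') = PF K L M * PF K L M' := by
  induction L with
  | nil => exact (mul_one _).symm
  | cons r L ih =>
    rw [PF_cons, PF_cons, PF_cons, Pi.mul_apply, map_mul, ih hL.tail]
    have h1 := PF_comm (K := K) (hL.1 r List.mem_cons_self) hL.tail.1 (List.pairwise_cons.1 hL.2).1 (M' r) M
    calc phr K r (M r) * phr K r (M' r) * (PF K L M * PF K L M')
        = phr K r (M r) * (phr K r (M' r) * PF K L M) * PF K L M' := by group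
      _ = phr K r (M r) * (PF K L M * phr K r (M' r)) * PF K L M' := by rw [h1.eq]
      _ = _ := by group

/-- the homomorphism `SL₂ⁿ → E₇` -/
noncomputable def PG (K : Type u) [Field K] {L : List ℕ} (hL : OrthL L) :
    (ℕ → SpecialLinearGroup (Fin 2) K) →* ↥(chevE7.group K) where
  toFun := PF K L
  map_one' := by
    unfold PF
    have : (L.map fun r => phr K r ((1 : ℕ → SpecialLinearGroup (Fin 2) K) r)) = L.map fun _ => 1 := by
      refine List.map_congr_left fun r _ => ?_
      rw [Pi.one_apply, map_one]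
    rw [this]
    simp
  map_mul' := PF_mul hL

theorem PG_apply {L : List ℕ} (hL : OrthL L) (M : ℕ → SpecialLinearGroup (Fin 2) K) :
    PG K hL M = (L.map fun r => phr K r (M r)).prod := rfl

theorem Phi_eq {L : List ℕ} (hL : OrthL L) (g : SpecialLinearGroup (Fin 2) K) :
    Phi K hL g = PG K hL (fun _ => g) := rfl

theorem emb_PG {K' : Type u} [Field K'] (f : K →+* K') {L : List ℕ} (hL : OrthL L)
    (M : ℕ → SpecialLinearGroup (Fin 2) K) :
    emb hp7.inList f (PG K hL M) = PG K' hL (fun r => SpecialLinearGroup.map f (M r)) := by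
  show emb hp7.inList f (PF K L M) = PF K' L (fun r => SpecialLinearGroup.map f (M r))
  unfold PF
  rw [map_list_prod, List.map_map]
  congr 1
  refine List.map_congr_left fun r hr => ?_
  exact emb_phr f (hL.1 r hr) _

end PG

/-! ### the lists -/

theorem c1 : Cl 1 [92, 107, 111, 78, 87, 104, 112] where
  orth := by decide +kernel
  sum := by decide +kernel
  two := cl1.two
  gam := Or.inl rfl

theorem c6 : Cl 6 [92, 107, 111] where
  orth := by decide +kernel
  sum := by decide +kernel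
  two := cl6.two
  gam := Or.inr rfl

section Mat

variable {K : Type u} [Field K]

/-- `-1` -/
noncomputable def m1 (K : Type u) [Field K] : SpecialLinearGroup (Fin 2) K := H (-1) (neg_ne_zero.2 one_ne_zero)

theorem coe_m1 : mm (m1 K) = !![-1, 0; 0, -1] := by
  unfold m1
  rw [coe_H]
  ext i j
  fin_cases i <;> fin_cases j <;> simp [inv_neg]

theorem m1_mul (g : SpecialLinearGroup (Fin 2) K) : mm (m1 K * g) = -mm g := by
  rw [mm_mul, coe_m1]
  ext i j
  fin_cases i <;> fin_cases j <;> simp [Matrix.mul_apply, Fin.sum_univ_two]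

theorem mul_m1 (g : SpecialLinearGroup (Fin 2) K) : mm (g * m1 K) = -mm g := by
  rw [mm_mul, coe_m1]
  ext i j
  fin_cases i <;> fin_cases j <;> simp [Matrix.mul_apply, Fin.sum_univ_two]

theorem m1_comm (g : SpecialLinearGroup (Fin 2) K) : m1 K * g = g * m1 K := ext2 (by rw [m1_mul, mul_m1])

theorem m1_sq : m1 K * m1 K = 1 := ext2 (by
  rw [m1_mul, coe_m1]
  ext i j
  fin_cases i <;> fin_cases j <;> simp [mm])

theorem m0_sq : m0 K * m0 K = m1 K := ext2 (by
  rw [mm_mul, coe_m0, coe_m1]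
  ext i j
  fin_cases i <;> fin_cases j <;> simp [Matrix.mul_apply, Fin.sum_univ_two])

/-- trace zero -/
def Tz (g : SpecialLinearGroup (Fin 2) K) : Prop := mm g 0 0 + mm g 1 1 = 0

theorem tz_m0 : Tz (m0 K) := by
  unfold Tz
  rw [coe_m0]; simp

theorem Tz.m1 {g : SpecialLinearGroup (Fin 2) K} (h : Tz g) : Tz (m1 K * g) := by
  unfold Tz
  rw [m1_mul, Matrix.neg_apply, Matrix.neg_apply, ← neg_add, h, neg_zero]

end Mat

section Main

variable {k : Type u} [Field k] [IsAlgClosed k] {p e : ℕ} [Fact p.Prime] [CharP k p] {F : Type u} [Field F] [Fintype F]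
  (f : F →+* k)

theorem std_of_tz (h2 : (2 : k) ≠ 0) {j : Fin 7} {L : List ℕ} (C : Cl j L) {M : ℕ → SpecialLinearGroup (Fin 2) k}
    (hM : ∀ r, Tz (M r)) : ∃ z : ↥(chevE7.group k), Std k j (z * PG k C.orth M * z⁻¹) := by
  obtain ⟨a, ha⟩ := IsAlgClosed.exists_pow_nat_eq (-1 : k) (n := 2) (by norm_num)
  have ha0 : a ≠ 0 := by
    rintro rfl
    norm_num at ha
  have h1 : ∀ r, ∃ P, m0 k = P * M r * P⁻¹ := fun r => by
    obtain ⟨P, hP⟩ := isConj_m0 h2 (hM r)
    exact ⟨P⁻¹, by rw [hP]; group⟩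
  choose P hP using h1
  obtain ⟨Q, hQ⟩ := isConj_m0 h2 (M := H a ha0) (by
    rw [coe_H]
    have h1 : a⁻¹ = -a := by
      rw [inv_eq_iff_eq_inv, eq_comm]
      apply inv_eq_of_mul_eq_one_left
      linear_combination -ha
    simp [h1])
  refine ⟨PG k C.orth (fun r => Q * P r), ?_⟩
  have e : PG k C.orth (fun r => Q * P r) * PG k C.orth M * (PG k C.orth (fun r => Q * P r))⁻¹ =
      Phi k C.orth (H a ha0) := by
    rw [← map_mul, ← map_inv, ← map_mul, Phi_eq]
    congr 1
    funext r
    show Q * P r * M r * (Q * P r)⁻¹ = H a ha0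
    rw [hQ, hP r]
    group
  rw [e]
  refine ⟨(Phi_H C.orth ha0).1, fun i => ?_⟩
  rw [C.H_cX, ha]

include f in
/-- trace zero at every root: the class of `Phi (m0)` -/
theorem isConj_PG (hk : LocFin k) (hp2 : p ≠ 2) (he : 0 < e) (hq : Fintype.card F = p ^ e) {j : Fin 7} {L : List ℕ}
    (C : Cl j L) {M : ℕ → SpecialLinearGroup (Fin 2) F} (hM : ∀ r, Tz (M r)) :
    IsConj (Phi F C.orth (m0 F)) (PG F C.orth M) := by
  obtain ⟨z, hz⟩ := std_of_tz (two_ne (k := k) hp2) C (M := fun r => SpecialLinearGroup.map f (M r)) (fun r => by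
    unfold Tz
    rw [mm_map, mm_map, ← map_add, hM r, map_zero])
  rw [← emb_PG] at hz
  exact C.conj_main f hk hp2 he hq hz

/-! ### the involution `h_a(-1)` -/

section tr

variable {K : Type u} [Field K]

theorem tr_eq1 : tr K 92 = PG K c1.orth (fun r => if r = 92 then m1 K else 1) := by
  rw [PG_apply]
  simp only [List.map_cons, List.map_nil, List.prod_cons, List.prod_nil, if_true, reduceIte, map_one, mul_one,
    show ¬ (107 = 92) by decide, show ¬ (111 = 92) by decide, show ¬ (78 = 92) by decide, show ¬ (87 = 92) by decide,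
    show ¬ (104 = 92) by decide, show ¬ (112 = 92) by decide]
  rfl

theorem tr_eq6 : tr K 92 = PG K c6.orth (fun r => if r = 92 then m1 K else 1) := by
  rw [PG_apply]
  simp only [List.map_cons, List.map_nil, List.prod_cons, List.prod_nil, if_true, reduceIte, map_one, mul_one,
    show ¬ (107 = 92) by decide, show ¬ (111 = 92) by decide]
  rfl

/-- the indicator of the three roots -/
def In3 (r : ℕ) : Prop := r = 92 ∨ r = 107 ∨ r = 111

instance (r : ℕ) : Decidable (In3 r) := by unfold In3; infer_instance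

theorem PG6_eq (M : ℕ → SpecialLinearGroup (Fin 2) K) :
    PG K c6.orth M = PG K c1.orth (fun r => if In3 r then M r else 1) := by
  rw [PG_apply, PG_apply]
  simp only [List.map_cons, List.map_nil, List.prod_cons, List.prod_nil, if_true, reduceIte, map_one, mul_one,
    show In3 92 by decide, show In3 107 by decide, show In3 111 by decide, show ¬ In3 78 by decide,
    show ¬ In3 87 by decide, show ¬ In3 104 by decide, show ¬ In3 112 by decide]

theorem PG1_m1 : PG K c1.orth (fun _ => m1 K) = 1 := c1.neg_one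

theorem PG6_m1 : PG K c6.orth (fun _ => m1 K) = 1 := c6.neg_one

end tr

include f in
theorem isConj_tr (hk : LocFin k) (hp2 : p ≠ 2) (he : 0 < e) (hq : Fintype.card F = p ^ e) :
    IsConj (tr F 125) (tr F 92) := by
  have h92 : 92 < chevE7.nroots := by decide
  have ha : HasMask (emb hp7.inList f (tr F 92)) 33 := by
    rw [emb_tr f h92]
    exact tr_mask h92 (by decide +kernel)
  exact conj_mask f hk hp2 he hq (by norm_num) ha (by decide +kernel)

include f in
/-- **Three classes.** -/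
theorem exists_class (hA : Cfsg.Agent.BpExc.TorAll.HAlg p k) (hk : LocFin k) (hp2 : p ≠ 2) (he : 0 < e)
    (hq : Fintype.card F = p ^ e) {x : ↥(chevE7.group F)} (hx : orderOf x = 2) :
    IsConj (tr F 92) x ∨ IsConj (Phi F c1.orth (m0 F)) x ∨ IsConj (Phi F c6.orth (m0 F)) x := by
  have hxx : x ^ 2 = 1 := by rw [← hx]; exact pow_orderOf_eq_one x
  have hx1 : x ≠ 1 := by
    rintro rfl
    rw [orderOf_one] at hx
    norm_num at hx
  obtain ⟨g, hg⟩ := Cfsg.Agent.BpExc.TorAll.exists_conj_mem_TT hp7 p hA Nat.prime_two (Ne.symm hp2)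
    (x := emb hp7.inList f x) (by rw [← map_pow, hxx, map_one])
  obtain ⟨g', j, hj, hst⟩ := exists_std hk p hg
    (by rw [show ∀ y : ↥(chevE7.group k), g * y * g⁻¹ * (g * y * g⁻¹) = g * (y * y) * g⁻¹ by intro y; group,
          ← map_mul, ← pow_two, hxx, map_one, mul_one, mul_inv_cancel])
    (by
      intro h
      apply hx1
      apply emb_injective hp7.inList f
      rw [map_one]
      have h2 := mul_inv_eq_one.1 h
      calc emb hp7.inList f x = g⁻¹ * (g * emb hp7.inList f x) := by group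
        _ = 1 := by rw [h2]; group)
  have e1 : g' * (g * emb hp7.inList f x * g⁻¹) * g'⁻¹ = (g' * g) * emb hp7.inList f x * (g' * g)⁻¹ := by group
  rw [e1] at hst
  rcases hj with rfl | rfl | rfl
  · exact Or.inl ((isConj_tr f hk hp2 he hq).symm.trans (conj_zero f hk hp2 he hq hst))
  · exact Or.inr (Or.inl (c1.conj_main f hk hp2 he hq hst))
  · exact Or.inr (Or.inr (c6.conj_main f hk hp2 he hq hst))

include f in
theorem pair_tr (hk : LocFin k) (hp2 : p ≠ 2) (he : 0 < e) (hq : Fintype.card F = p ^ e) {j : Fin 7} {L : List ℕ}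
    (C : Cl j L) (ht : tr F 92 = PG F C.orth (fun r => if r = 92 then m1 F else 1)) :
    Pair (tr F 92) (Phi F C.orth (m0 F)) := by
  refine ⟨tr F 92, Phi F C.orth (m0 F), ?_, IsConj.refl _, IsConj.refl _, Or.inr ?_⟩
  · rw [ht, Phi_eq, ← map_mul, ← map_mul]
    congr 1
    funext r
    simp only [Pi.mul_apply]
    split_ifs
    · exact m1_comm _
    · rw [one_mul, mul_one]
  · have h1 : tr F 92 * Phi F C.orth (m0 F) = PG F C.orth ((fun r => if r = 92 then m1 F else 1) * fun _ => m0 F) := by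
      rw [ht, Phi_eq, ← map_mul]
    rw [h1]
    refine isConj_PG f hk hp2 he hq C fun r => ?_
    simp only [Pi.mul_apply]
    split_ifs
    · exact tz_m0.m1
    · rw [one_mul]; exact tz_m0

include f in
theorem pair_16 (hk : LocFin k) (hp2 : p ≠ 2) (he : 0 < e) (hq : Fintype.card F = p ^ e) :
    Pair (Phi F c1.orth (m0 F)) (Phi F c6.orth (m0 F)) := by
  have h2F : (2 : F) ≠ 0 := by
    intro h
    apply two_ne (k := k) hp2
    have := congrArg f h
    rwa [map_ofNat, map_zero] at this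
  obtain ⟨a, b, hab⟩ := sum_sq h2F (-1 : F)
  obtain ⟨N, hN⟩ : ∃ N : SpecialLinearGroup (Fin 2) F, mm N = !![a, b; b, -a] := by
    refine ⟨⟨!![a, b; b, -a], ?_⟩, rfl⟩
    rw [Matrix.det_fin_two]
    simp
    linear_combination -hab
  have tN : Tz N := by
    unfold Tz
    rw [hN]; simp
  have tmN : Tz (m0 F * N) := by
    unfold Tz
    rw [mm_mul, hN, coe_m0]
    simp [Matrix.mul_apply, Fin.sum_univ_two]
  have e1 : N * m0 F = m1 F * (m0 F * N) := by
    refine ext2 ?_
    rw [m1_mul, mm_mul, mm_mul, hN, coe_m0]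
    ext i j
    fin_cases i <;> fin_cases j <;> simp [Matrix.mul_apply, Fin.sum_univ_two]
  refine ⟨Phi F c1.orth (m0 F), PG F c6.orth (fun _ => N), ?_, IsConj.refl _,
    isConj_PG f hk hp2 he hq c6 (fun _ => tN), Or.inl ?_⟩
  · have h1 : PG F c6.orth (fun _ => N) * Phi F c1.orth (m0 F) = PG F c6.orth (fun _ => m1 F) *
        (Phi F c1.orth (m0 F) * PG F c6.orth (fun _ => N)) := by
      rw [PG6_eq, PG6_eq, Phi_eq, ← map_mul, ← map_mul, ← map_mul]
      congr 1
      funext r
      simp only [Pi.mul_apply]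
      split_ifs
      · exact e1
      · simp
    rw [h1, PG6_m1, one_mul]
  · have h1 : Phi F c1.orth (m0 F) * PG F c6.orth (fun _ => N) =
        PG F c1.orth ((fun _ => m0 F) * fun r => if In3 r then N else 1) := by
      rw [PG6_eq, Phi_eq, ← map_mul]
    rw [h1]
    refine isConj_PG f hk hp2 he hq c1 fun r => ?_
    simp only [Pi.mul_apply]
    split_ifs
    · exact tmN
    · rw [mul_one]; exact tz_m0

end Main

theorem sq_Phi {F : Type u} [Field F] {j : Fin 7} {L : List ℕ} (C : Cl j L) :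
    Phi F C.orth (m0 F) * Phi F C.orth (m0 F) = 1 := by
  rw [← map_mul, m0_sq]
  exact C.neg_one

/-- `EM` -/
theorem em_e7 {F : Type u} [Field F]
    (h : ∀ x : ↥(chevE7.group F), orderOf x = 2 → IsConj (tr F 92) x ∨ IsConj (Phi F c1.orth (m0 F)) x ∨
      IsConj (Phi F c6.orth (m0 F)) x) : EM ↥(chevE7.group F) := by
  -- three functions
  have key : ∀ y : ↥(chevE7.group F), y = tr F 92 ∨ y = Phi F c1.orth (m0 F) ∨ y = Phi F c6.orth (m0 F) →
      ∃ M : ℕ → SpecialLinearGroup (Fin 2) F, y = PG F c1.orth M ∧ ∀ r, M r = 1 ∨ M r = m0 F ∨ M r = m1 F := by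
    rintro y (rfl | rfl | rfl)
    · refine ⟨_, tr_eq1, fun r => ?_⟩
      split_ifs
      · exact Or.inr (Or.inr rfl)
      · exact Or.inl rfl
    · exact ⟨_, Phi_eq _ _, fun r => Or.inr (Or.inl rfl)⟩
    · refine ⟨_, (Phi_eq _ _).trans (PG6_eq _), fun r => ?_⟩
      split_ifs
      · exact Or.inr (Or.inl rfl)
      · exact Or.inl rfl
  refine em_of_commuting {y | y = tr F 92 ∨ y = Phi F c1.orth (m0 F) ∨ y = Phi F c6.orth (m0 F)} ?_ ?_ ?_
  · rintro y (rfl | rfl | rfl)
    · rw [tr_eq1, ← map_mul, ← map_one (PG F c1.orth)]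
      congr 1
      funext r
      simp only [Pi.mul_apply, Pi.one_apply]
      split_ifs
      · exact m1_sq
      · exact one_mul 1
    · exact sq_Phi c1
    · exact sq_Phi c6
  · intro y hy z hz
    obtain ⟨M, rfl, hM⟩ := key y hy
    obtain ⟨N, rfl, hN⟩ := key z hz
    rw [← map_mul, ← map_mul]
    congr 1
    funext r
    simp only [Pi.mul_apply]
    rcases hM r with h1 | h1 | h1 <;> rcases hN r with h2 | h2 | h2 <;> rw [h1, h2] <;>
      first | simp | exact m1_comm _ | exact (m1_comm _).symm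
  · intro t ht
    rcases h t ht with h1 | h1 | h1 <;> obtain ⟨g, hg⟩ := isConj_iff.1 h1.symm
    · exact ⟨g, by rw [hg]; exact Subgroup.subset_closure (Or.inl rfl)⟩
    · exact ⟨g, by rw [hg]; exact Subgroup.subset_closure (Or.inr (Or.inl rfl))⟩
    · exact ⟨g, by rw [hg]; exact Subgroup.subset_closure (Or.inr (Or.inr rfl))⟩

/-- the group -/
theorem crow_group {F : Type} [Field F] [Fintype F] (hF : Odd (Fintype.card F)) : CRow ↥(chevE7.group F) := by
  obtain ⟨p, n, hpf, hpF, hpk, hn, hq, hk⟩ := exists_closure (F := F) rfl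
  have hA : Cfsg.Agent.BpExc.TorAll.HAlg p (AlgebraicClosure F) := by
    let _ := ZMod.algebra F p
    have : Algebra.IsAlgebraic (ZMod p) F := Algebra.IsAlgebraic.of_finite _ _
    have : Algebra.IsAlgebraic (ZMod p) (AlgebraicClosure F) := Algebra.IsAlgebraic.trans (ZMod p) F _
    exact Cfsg.Agent.BpExc.TorAll.hAlg_of_isAlgebraic p _
  have hp2 : p ≠ 2 := by
    rintro rfl
    rw [hq, Nat.odd_pow_iff (by omega)] at hF
    exact absurd hF (by decide)
  have h := fun (x : ↥(chevE7.group F)) (hx : orderOf x = 2) =>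
    exists_class (algebraMap F (AlgebraicClosure F)) hA hk hp2 hn hq hx
  have hmul := Cfsg.Agent.S2106.result (F := F) rfl
  have hexp : ExpTwo ↥(chevE7.group F) := expTwo_of_cyclic hmul (fun h4 => by
    have h5 : Nat.gcd 2 (Fintype.card F - 1) ∣ 2 := Nat.gcd_dvd_left _ _
    have h6 := Nat.le_of_dvd (by norm_num) (h4.trans h5)
    omega)
  exact crow_of_three hexp (em_e7 h) (pair_tr (algebraMap F (AlgebraicClosure F)) hk hp2 hn hq c1 tr_eq1)
    (pair_tr (algebraMap F (AlgebraicClosure F)) hk hp2 hn hq c6 tr_eq6)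
    (pair_16 (algebraMap F (AlgebraicClosure F)) hk hp2 hn hq) h

/-- **The row.** -/
theorem crow_e7_odd {L : Type u} [Group L] [Finite L] [IsSimpleGroup L] {F : Type} [Field F] [Fintype F]
    (hF : Odd (Fintype.card F)) (e : L ≃* Cfsg.Lie.chevE7.group F) : CRow L :=
  CRow.congr e (crow_group hF)

end Cfsg.Agent.H86.EM
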